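import Cfsg.Agent.Lib.BG.Hall
import Cfsg.Agent.Lib.Transfer.Fusion

/-! A self-centralizing Sylow 3-subgroup of order 9 with semidihedral automizer: basic facts (helper27). -/

set_option autoImplicit false
set_option linter.unusedSectionVars false

namespace Cfsg.Lib.SD9

open Subgroup Cfsg.Lib.BG Cfsg.Lib.Transfer
open scoped Cfsg.Lib.Transfer

variable {G : Type*} [Group G] {p q s t u v w x y h : G} {K P Q R : Subgroup G}

/-- conjugation -/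
def cn (p x : G) : G := p * x * p⁻¹

theorem cn_mul (p x y : G) : cn p (x * y) = cn p x * cn p y := conj_mul.symm
theorem mul_cn (p q x : G) : cn (p * q) x = cn p (cn q x) := by simp only [cn]; group
theorem cn_inv (p x : G) : cn p x⁻¹ = (cn p x)⁻¹ := by simp only [cn]; group
theorem cn_one (p : G) : cn p 1 = 1 := by simp [cn]
theorem one_cn (x : G) : cn 1 x = x := by simp [cn]
theorem cn_pow (p x : G) (n : ℕ) : cn p (x ^ n) = cn p x ^ n := conj_pow.symm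
theorem cn_zpow (p x : G) (n : ℤ) : cn p (x ^ n) = cn p x ^ n := conj_zpow.symm
theorem inv_cn_cn (p x : G) : cn p⁻¹ (cn p x) = x := by simp only [cn]; group
theorem cn_inv_cn (p x : G) : cn p (cn p⁻¹ x) = x := by simp only [cn]; group
theorem cn_inj : cn p x = cn p y ↔ x = y := by simp [cn]
theorem cn_eq_one : cn p x = 1 ↔ x = 1 := conj_eq_one_iff
theorem cn_ne_one (h : x ≠ 1) : cn p x ≠ 1 := mt cn_eq_one.1 h
theorem cn_fix (h : Commute p x) : cn p x = x := mul_inv_eq_iff_eq_mul.2 h.eq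
theorem comm_of_cn (h : cn p x = x) : Commute p x := mul_inv_eq_iff_eq_mul.1 h
theorem cn_comm (h : Commute x y) (p : G) : Commute (cn p x) (cn p y) := by
  rw [Commute, SemiconjBy, ← cn_mul, ← cn_mul, h.eq]
theorem cn_symm (h : cn p x = y) : cn p⁻¹ y = x := h ▸ inv_cn_cn p x
theorem isConj_cn (p x : G) : IsConj x (cn p x) := isConj_iff.2 ⟨p, rfl⟩
theorem isConj_of (h : cn p x = y) : IsConj x y := h ▸ isConj_cn p x
theorem ex_cn (h : IsConj x y) : ∃ p, cn p x = y := isConj_iff.1 h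
theorem cn_self (p : G) : cn p p = p := by simp [cn]
theorem cn_cn (p q x : G) : cn (cn p q) (cn p x) = cn p (cn q x) := by simp only [cn]; group
theorem cn_sq (h : x * x = 1) (p : G) : cn p x * cn p x = 1 := by rw [← cn_mul, h, cn_one]
theorem cn_cube (h : x ^ 3 = 1) (p : G) : cn p x ^ 3 = 1 := by rw [← cn_pow, h, cn_one]
theorem cn_mem (a : p ∈ 𝐍(K)) (b : x ∈ K) : cn p x ∈ K := conj_mem_of_norm a b
theorem cn_mem_iff (a : p ∈ 𝐍(K)) : cn p x ∈ K ↔ x ∈ K := (mem_normalizer_iff.1 a x).symm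
theorem cn_of (h : p * x = y * p) : cn p x = y := mul_inv_eq_iff_eq_mul.2 h
theorem of_cn (h : cn p x = y) : p * x = y * p := mul_inv_eq_iff_eq_mul.1 h
theorem cn3 (h3 : h ^ 3 = 1) (x : G) : cn h (cn h (cn h x)) = x := by
  rw [← mul_cn, ← mul_cn, show h * h * h = h ^ 3 by simp [pow_succ], h3, one_cn]
theorem cn2 (h2 : h * h = 1) (x : G) : cn h (cn h x) = x := by rw [← mul_cn, h2, one_cn]
theorem cn_inv3 (h3 : h ^ 3 = 1) (x : G) : cn h⁻¹ x = cn h (cn h x) := cn_symm (cn3 h3 x)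
theorem inv2 (h : x * x = 1) : x⁻¹ = x := inv_eq_of_mul_eq_one_right h
theorem cancel2 (h : x * x = 1) (y : G) : x * (x * y) = y := by rw [← mul_assoc, h, one_mul]
theorem sw (h : p * q = s) (y : G) : p * (q * y) = s * y := by rw [← mul_assoc, h]
theorem sq_mul (a : x * x = 1) (b : y * y = 1) (c : Commute x y) : x * y * (x * y) = 1 := by
  rw [mul_assoc, ← mul_assoc y, ← c.eq, mul_assoc, b, mul_one, a]
theorem comm2 (a : x * x = 1) (b : y * y = 1) (c : x * y * (x * y) = 1) : Commute x y := by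
  have := inv2 c
  rwa [mul_inv_rev, inv2 a, inv2 b, eq_comm] at this
theorem zp2 (a : u * u = 1) : x ∈ zpowers u ↔ x = 1 ∨ x = u := by
  refine ⟨fun ⟨n, e⟩ => ?_, fun e => e.elim (fun e => e ▸ one_mem _) fun e => e ▸ mem_zpowers _⟩
  have : ∀ k : ℤ, u ^ (2 * k) = 1 := fun k => by rw [zpow_mul, zpow_two, a, one_zpow]
  rcases Int.even_or_odd' n with ⟨k, rfl | rfl⟩
  · exact .inl (e.symm.trans (this k))
  · exact .inr (e.symm.trans (by simp [zpow_add, this]))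
theorem cube_mul (h3 : h ^ 3 = 1) (y : G) : (y * h) ^ 3 = y * cn h y * cn h (cn h y) := by
  rw [← mul_one (y * cn h y * cn h (cn h y)), ← h3]; simp only [cn, pow_succ]; group
theorem mC : x ∈ 𝐂[y] ↔ Commute x y := mem_cent1

theorem eq1 {m n : ℕ} (h1 : x ^ m = 1) (h2 : x ^ n = 1) (h : m.Coprime n) : x = 1 :=
  orderOf_eq_one_iff.1 (Nat.eq_one_of_dvd_coprimes h (orderOf_dvd_of_pow_eq_one h1) (orderOf_dvd_of_pow_eq_one h2))

/-- a `2`-element -/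
def E2 (x : G) : Prop := ∃ n, x ^ 2 ^ n = 1

/-- the order is divisible by three -/
def T3 (x : G) : Prop := 3 ∣ orderOf x

theorem E2.of_mem (a : IsPGroup 2 P) (b : x ∈ P) : E2 x := (a ⟨x, b⟩).imp fun _ e => congrArg Subtype.val e
theorem E2.of_sq (a : x * x = 1) : E2 x := ⟨1, by rw [pow_one, sq, a]⟩
theorem E2.of_sq' (a : E2 (x * x)) : E2 x := let ⟨n, e⟩ := a; ⟨n + 1, by rw [pow_succ', pow_mul, sq, e]⟩
theorem E2.cn (a : E2 x) (p : G) : E2 (cn p x) := a.imp fun _ e => by rw [← cn_pow, e, cn_one]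
theorem E2.mul (a : E2 x) (b : E2 y) (c : Commute x y) : E2 (x * y) := by
  obtain ⟨m, a⟩ := a
  obtain ⟨n, b⟩ := b
  exact ⟨m + n, by rw [c.mul_pow, pow_add, pow_mul, a, mul_comm, pow_mul, b]; simp⟩
theorem E2.inv (a : E2 x) : E2 x⁻¹ := a.imp fun _ e => by rw [inv_pow, e, inv_one]
theorem E2.eq1 (a : E2 x) (b : x ^ 3 = 1) : x = 1 := let ⟨n, e⟩ := a; SD9.eq1 b e (Nat.Coprime.pow_right n (by norm_num))
theorem E2.pg (a : E2 x) : IsPGroup 2 (zpowers x) := fun ⟨_, l, rfl⟩ => a.imp fun n e => Subtype.ext (by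
  change (x ^ l) ^ 2 ^ n = 1
  rw [← zpow_natCast, ← zpow_mul, mul_comm, zpow_mul, zpow_natCast, e, one_zpow])
theorem pg_of (a : ∀ x ∈ P, E2 x) : IsPGroup 2 P := fun x => (a x x.2).imp fun _ e => Subtype.ext e
theorem pg3 (a : h ^ 3 = 1) : IsPGroup 3 (zpowers h) := fun ⟨_, l, rfl⟩ => ⟨1, Subtype.ext (by
  change (h ^ l) ^ 3 ^ 1 = 1
  rw [pow_one, ← zpow_natCast, ← zpow_mul, mul_comm, zpow_mul, zpow_natCast, a, one_zpow])⟩
theorem cube_zp (a : h ^ 3 = 1) (b : x ∈ zpowers h) : x ^ 3 = 1 := by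
  obtain ⟨l, rfl⟩ := b
  rw [← zpow_natCast, ← zpow_mul, mul_comm, zpow_mul, zpow_natCast, a, one_zpow]
theorem ne_inv3 (a : h ^ 3 = 1) (b : h ≠ 1) : h ≠ h⁻¹ := fun e =>
  b (by rwa [pow_succ, pow_two, mul_eq_one_iff_eq_inv.2 e, one_mul] at a)

theorem mem_ext (a : t ∈ 𝐍(K)) (b : t * t ∈ K) : y ∈ K ⊔ zpowers t ↔ y ∈ K ∨ y * t ∈ K := by
  refine ⟨fun e => ?_, fun e => e.elim mem_sup_left fun e => by
    simpa using mul_mem (mem_sup_left e) (inv_mem (mem_sup_right (S := K) (mem_zpowers t)))⟩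
  obtain ⟨k, m, _, ⟨n, rfl⟩, rfl⟩ := (mem_sup_left_norm (zpowers_le.2 a)).1 e
  have : ∀ j : ℤ, t ^ (2 * j) ∈ K := fun j => by rw [zpow_mul, zpow_two]; exact zpow_mem b j
  rcases Int.even_or_odd' n with ⟨j, rfl | rfl⟩
  · exact .inl (mul_mem m (this j))
  · refine .inr ?_
    have e := mul_mem m (this (j + 1))
    convert e using 1
    simp only [mul_add, zpow_add]; group

variable [Finite G]

theorem t3_of (K : Subgroup G) (a : w ^ 3 ∈ K) (b : w ∉ K) : T3 w := by_contra fun c =>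
  b (zpowers_le.2 a (mem_zpowers_pow_iff.2 (by
    exact (Nat.Prime.coprime_iff_not_dvd Nat.prime_three).2 c)))

theorem t3_cn (a : cn (w ^ 3) x = x) (b : cn w x ≠ x) : T3 w :=
  t3_of 𝐂[x] (mC.2 (comm_of_cn a)) fun e => b (cn_fix (mC.1 e))

theorem t3_md (z2 : s * s = 1) (c : Commute u s) (d : Commute w s) (a : cn (w ^ 3) u = u ∨ cn (w ^ 3) u = u * s)
    (b1 : cn w u ≠ u) (b2 : cn w u ≠ u * s) : T3 w := by
  let K : Subgroup G :=
    { carrier := {p | cn p s = s ∧ (cn p u = u ∨ cn p u = u * s)}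
      one_mem' := ⟨one_cn _, .inl (one_cn _)⟩
      mul_mem' := fun {p q} e f => ⟨by rw [mul_cn, f.1, e.1], by
        rcases e.2 with i | i <;> rcases f.2 with j | j <;> simp [mul_cn, cn_mul, i, j, e.1, mul_assoc, z2]⟩
      inv_mem' := fun {p} e => ⟨cn_symm e.1, e.2.imp cn_symm fun i => cn_symm (by rw [cn_mul, i, e.1, mul_assoc, z2, mul_one])⟩ }
  exact t3_of K ⟨cn_fix (d.pow_left 3), a⟩ fun e => e.2.elim b1 b2

theorem T3.ex (a : T3 w) : ∃ n, (w ^ n) ^ 3 = 1 ∧ w ^ n ≠ 1 := by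
  obtain ⟨n, e⟩ := a
  have := orderOf_pos w
  refine ⟨n, by rw [← pow_mul, mul_comm, ← e, pow_orderOf_eq_one], fun f => ?_⟩
  have := Nat.le_of_dvd (by omega) (orderOf_dvd_of_pow_eq_one f)
  omega

theorem T3.of3 (a : h ^ 3 = 1) (b : h ≠ 1) : T3 h := t3_of ⊥ a b

theorem t3_norm (a : IsPGroup 2 P) (h3 : h ^ 3 = 1) (h1 : h ≠ 1) (n : h ∈ 𝐍(P)) (b : y ∈ P) : T3 (y * h) :=
  t3_of P (by rw [cube_mul h3]; exact mul_mem (mul_mem b (cn_mem n b)) (cn_mem n (cn_mem n b))) fun e =>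
    h1 ((E2.of_mem a ((mul_mem_cancel_left b).1 e)).eq1 h3)

theorem exists_inv (a : IsPGroup 2 P) (b : Q ≤ P) (c : P ≤ 𝐍(Q)) (d : Q ≠ ⊥) :
    ∃ x ∈ Q, x * x = 1 ∧ x ≠ 1 ∧ ∀ y ∈ P, Commute x y := by
  obtain ⟨X, e, f⟩ := exists_prime_le (nil_meet_center (pgroup_nil a) b c d)
  obtain ⟨x, i, j⟩ := exists_ne_one (ne_bot_of_prime f)
  have k := pgroup_eq_of_dvd (pgroup_of_le a (e.trans (inf_le_left.trans b))) f dvd_rfl
  refine ⟨x, (e i).1, ?_, j, fun y l => (mem_cent.1 (e i).2 y l).symm⟩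
  have := pow_card_eq_one' (x := (⟨x, i⟩ : X))
  rw [k, sq] at this
  exact congrArg Subtype.val this

/-- an element of `P` outside `K`, normalizing it, with square and commutators in `K` -/
theorem exists_out (a : IsPGroup 2 P) (b : K < Q) (c : Q ≤ P) (d : P ≤ 𝐍(Q)) (e : P ≤ 𝐍(K)) :
    ∃ x ∈ Q, x ∉ K ∧ x * x ∈ K ∧ ∀ y ∈ P, x⁻¹ * cn y x ∈ K := by
  have : (K.subgroupOf P).Normal := (normal_subgroupOf_iff_le_normalizer (b.le.trans c)).2 e
  have : (Q.subgroupOf P).Normal := (normal_subgroupOf_iff_le_normalizer c).2 d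
  let π := QuotientGroup.mk' (K.subgroupOf P)
  have m : ∀ x : P, π x = 1 ↔ (x : G) ∈ K := fun x => QuotientGroup.eq_one_iff x
  have : ((Q.subgroupOf P).map π).Normal := Normal.map ‹_› π (QuotientGroup.mk'_surjective _)
  obtain ⟨_, ⟨x, i, rfl⟩, j, k, l⟩ := exists_inv (P := ⊤) (Q := (Q.subgroupOf P).map π)
    ((a.to_quotient _).to_subgroup _) le_top le_normalizer_of_normal fun f => by
      obtain ⟨y, i, j⟩ := SetLike.exists_of_lt b
      exact j ((m ⟨y, c i⟩).1 (mem_bot.1 (f.le ⟨_, i, rfl⟩)))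
  refine ⟨x, i, mt (m x).2 k, (m (x * x)).1 ((map_mul _ _ _).trans j), fun y n =>
    (m (x⁻¹ * ((⟨y, n⟩ : P) * x * (⟨y, n⟩ : P)⁻¹))).1 ?_⟩
  rw [map_mul, map_mul, map_mul, map_inv, map_inv, ← (l _ (mem_top _)).eq]
  group

theorem pure_com {L : Type*} [Group L] {p p1 p2 q q1 q2 : L} (a : p * p1 * p2 = 1) (b : q * q1 * q2 = 1)
    (c : p * q * (p1 * q1) * (p2 * q2) = 1) (d : p * q = q * p) (e : p1 * q1 = q1 * p1) : p * q1 = q1 * p := by
  rw [← mul_inv_eq_one]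
  rw [← inv_eq_of_mul_eq_one_right a, ← inv_eq_of_mul_eq_one_right b, d, e] at c
  rw [← conj_eq_one_iff (a := q), ← c]
  group

/-- Thompson's transfer lemma, with a criterion for a Sylow subgroup -/
theorem endgame (hG : pResidual 2 G = ⊤) {b : G} {S S0 : Subgroup G} (bb : b * b = 1) (a : IsPGroup 2 S)
    (i : S0.relIndex S = 2) (c : ∀ u ∈ S0, ¬ IsConj b u) (d : ∀ n ∈ 𝐍(S), ∃ l ∈ S, cn l b = cn n b)
    (e : ∀ P : Subgroup G, IsPGroup 2 P → S ≤ P → ∀ n ∈ P, n ∈ 𝐍(S) → Commute n b → n ∈ S) : False := by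
  obtain ⟨P, hP⟩ := Syl.top_iff_sylow.1 (Syl.of_max le_top a fun P p l _ => by_contra fun f => by
    obtain ⟨n, ⟨m, o⟩, k⟩ := SetLike.exists_of_lt (nil_norm_grow (pgroup_nil p) (lt_of_le_of_ne l fun e => f e.ge))
    obtain ⟨j, r, s⟩ := d n o
    exact k ((mul_mem_cancel_left (inv_mem r)).1 (e P p l _ (mul_mem (inv_mem (l r)) m)
      (mul_mem (inv_mem (le_norm S r)) o) (comm_of_cn (by rw [mul_cn, ← s, inv_cn_cn])))))
  obtain ⟨g, m⟩ := exists_conj_mem_of_thompson_transfer hG P (hP ▸ i) (u := b) (by rw [sq, bb])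
  exact c _ m (isConj_cn g b)

/-- the data -/
structure Hy (a r z b c g k : G) : Prop where
  res : pResidual 2 G = ⊤
  aa : a * a = r
  rr : r * r = z
  zz : z * z = 1
  z1 : z ≠ 1
  bb : b * b = 1
  ab : cn a b = r⁻¹ * b
  bz : b * z = c
  g3 : g ^ 3 = 1
  g1 : g ≠ 1
  bg : Commute b g
  zg : cn z g = g⁻¹
  rg : cn r g = k
  gk : Commute g k
  pab : IsPGroup 2 (zpowers a ⊔ zpowers b : Subgroup G)
  cj : ∀ h : G, h ^ 3 = 1 → h ≠ 1 → IsConj g h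
  cen : ∀ w, Commute w g → w ^ 3 = 1 ∨ ∃ m, Commute m g ∧ cn m b = w ^ 3
  six : ∀ w, Commute w g → Commute w b → w ∈ zpowers g ∨ w * b ∈ zpowers g
  nn : ∀ P R : Subgroup G, IsPGroup 2 P → IsPGroup 3 R → R ≤ 𝐍(P) → P ≠ ⊥ → ∀ h ∈ R, h ≠ 1 → R ≤ zpowers h
  nm : ∀ P : Subgroup G, IsPGroup 2 P → g ∈ 𝐍(P) → k ∈ 𝐍(P) → P = ⊥

namespace Hy

variable {a r z b c g k : G} (H : Hy a r z b c g k)
include H

theorem ar : Commute a r := H.aa ▸ (Commute.refl a).mul_right (Commute.refl a)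
theorem rz : Commute r z := H.rr ▸ (Commute.refl r).mul_right (Commute.refl r)
theorem az : Commute a z := H.rr ▸ H.ar.mul_right H.ar
theorem ri : r⁻¹ = r * z := inv_eq_of_mul_eq_one_right (by rw [← mul_assoc, H.rr, H.zz])
theorem br : cn b r = r⁻¹ := by
  have := cn_sq H.bb a
  rw [H.ab, mul_assoc, ← mul_assoc b, inv_mul_eq_one] at this
  rw [cn, inv2 H.bb]
  nth_rw 1 [this]
  simp only [mul_assoc, cancel2 H.bb, H.bb, mul_one]
theorem zb : Commute z b := (comm_of_cn (by rw [← H.rr, cn_mul, H.br, ← mul_inv_rev, H.rr, inv2 H.zz])).symm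
theorem cb : Commute c b := H.bz ▸ (Commute.refl b).mul_left H.zb
theorem cz : Commute c z := H.bz ▸ H.zb.symm.mul_left (Commute.refl z)
theorem cc : c * c = 1 := H.bz ▸ sq_mul H.bb H.zz H.zb.symm
theorem bc : b * c = z := by rw [← H.bz, cancel2 H.bb]
theorem cb' : c * b = z := H.cb.eq.trans H.bc
theorem cz' : c * z = b := by rw [← H.bz, mul_assoc, H.zz, mul_one]
theorem rb : cn r b = c := by
  rw [cn, ← H.bz, ← H.zb.eq, ← H.rr, mul_assoc, mul_assoc, ← of_cn (p := b) (x := r⁻¹) (y := r) (by rw [cn_inv, H.br, inv_inv])]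
theorem rc : cn r c = b := by rw [← H.bz, cn_mul, H.rb, cn_fix H.rz, H.cz']
theorem b1 : b ≠ 1 := fun e => H.z1 (by
  have := H.ab
  rw [e, cn_one, mul_one, eq_comm, inv_eq_one] at this
  rw [← H.rr, this, mul_one])
theorem c1 : c ≠ 1 := H.rb ▸ cn_ne_one H.b1
theorem bc_ne : b ≠ c := fun e => H.z1 (by rw [← H.bc, ← e, H.bb])
theorem Bc : IsConj b c := isConj_of H.rb
theorem cg : cn c g = g⁻¹ := by rw [← H.bz, mul_cn, H.zg, cn_inv, cn_fix H.bg]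
theorem rk : cn r k = g⁻¹ := by rw [← H.rg, ← mul_cn, H.rr, H.zg]
theorem k3 : k ^ 3 = 1 := H.rg ▸ cn_cube H.g3 r
theorem k1 : k ≠ 1 := H.rg ▸ cn_ne_one H.g1
theorem ck : Commute c k := H.rg ▸ H.rb ▸ cn_comm H.bg r
theorem bk : cn b k = k⁻¹ := by rw [← H.rg, ← H.rc, cn_cn, H.cg, cn_inv]
theorem bz_ne : b ≠ z := fun e => ne_inv3 H.g3 H.g1 ((cn_fix (e ▸ H.bg)).symm.trans H.zg)
theorem cz_ne : c ≠ z := fun e => H.b1 (by rw [← H.cz', e, H.zz])
theorem r2 : E2 r := .of_sq' (H.rr ▸ .of_sq H.zz)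
theorem a2 : E2 a := .of_sq' (H.aa ▸ H.r2)
theorem rB : IsConj b (r * b) := isConj_of (p := a * z * r) (by
  rw [mul_cn, mul_cn, H.rb, cn_fix H.cz.symm, ← H.bz, cn_mul, H.ab, cn_fix H.az, H.ri, mul_assoc, mul_assoc,
    ← H.zb.eq, cancel2 H.zz])

theorem cube (h3 : h ^ 3 = 1) (h1 : h ≠ 1) (e : Commute w h) : w ^ 3 = 1 ∨ IsConj b (w ^ 3) := by
  obtain ⟨p, rfl⟩ := ex_cn (H.cj h h3 h1)
  refine (H.cen (cn p⁻¹ w) (by simpa [inv_cn_cn] using cn_comm e p⁻¹)).imp (fun f => ?_) fun ⟨m, _, f⟩ => ?_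
  · rwa [← cn_pow, cn_eq_one] at f
  · exact isConj_of (p := p * m) (by rw [mul_cn, f, ← cn_pow, cn_inv_cn])

theorem pair (h3 : h ^ 3 = 1) (h1 : h ≠ 1) (uu : u * u = 1) (u1 : u ≠ 1) (e : Commute u h) :
    ∃ p, cn p g = h ∧ cn p b = u := by
  obtain ⟨p, rfl⟩ := ex_cn (H.cj h h3 h1)
  have f : cn p⁻¹ u ^ 3 = cn p⁻¹ u := by rw [← cn_pow, pow_succ, sq, uu, one_mul]
  rcases H.cen (cn p⁻¹ u) (by simpa [inv_cn_cn] using cn_comm e p⁻¹) with i | ⟨m, j, i⟩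
  · exact absurd (f.symm.trans i) (cn_ne_one u1)
  · exact ⟨p * m, by rw [mul_cn, cn_fix j], by rw [mul_cn, i, f, cn_inv_cn]⟩

theorem sq_B (e : IsConj b u) : u * u = 1 := let ⟨p, e⟩ := ex_cn e; e ▸ cn_sq H.bb p
theorem ne_B (e : IsConj b u) : u ≠ 1 := let ⟨_, e⟩ := ex_cn e; e ▸ cn_ne_one H.b1

theorem t6 (e : T3 w) : w ^ 3 * w ^ 3 = 1 := by
  obtain ⟨n, f, i⟩ := e.ex
  exact (H.cube f i ((Commute.refl w).pow_right n)).elim (fun j => by rw [j, one_mul]) H.sq_B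

theorem t3sq (e : T3 w) : (w ^ 2) ^ 3 = 1 ∧ w ^ 2 ≠ 1 :=
  ⟨by rw [← H.t6 e]; group, fun f => by
    have := e.trans (orderOf_dvd_of_pow_eq_one f)
    omega⟩

theorem cube' (e : T3 w) : w ^ 3 = 1 ∨ IsConj b (w ^ 3) :=
  H.cube (H.t3sq e).1 (H.t3sq e).2 ((Commute.refl w).pow_right 2)

theorem two (h3 : h ^ 3 = 1) (h1 : h ≠ 1) (uu : u * u = 1) (u1 : u ≠ 1) (e : Commute u h) (f : Commute y h)
    (i : Commute y u) (j : E2 y) : y = 1 ∨ y = u := by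
  obtain ⟨p, rfl, rfl⟩ := H.pair h3 h1 uu u1 e
  have l := j.cn p⁻¹
  have m : Commute (cn p⁻¹ y) b := by simpa [inv_cn_cn] using cn_comm i p⁻¹
  refine (H.six (cn p⁻¹ y) (by simpa [inv_cn_cn] using cn_comm f p⁻¹) m).imp (fun n => ?_) fun n => ?_
  · exact cn_eq_one.1 (l.eq1 (cube_zp H.g3 n))
  · have := (l.mul (.of_sq H.bb) m).eq1 (cube_zp H.g3 n)
    rw [mul_eq_one_iff_eq_inv, inv2 H.bb] at this
    rw [← this, cn_inv_cn]

theorem isB (e : T3 w) (uu : u * u = 1) (u1 : u ≠ 1) (f : Commute u w) : IsConj b u :=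
  let ⟨_, _, i⟩ := H.pair (H.t3sq e).1 (H.t3sq e).2 uu u1 (f.pow_right 2); isConj_of i

theorem cube2 (e : T3 w) (uu : u * u = 1) (u1 : u ≠ 1) (f : Commute u w) : w ^ 3 = 1 ∨ w ^ 3 = u :=
  H.two (H.t3sq e).1 (H.t3sq e).2 uu u1 (f.pow_right 2) ((Commute.refl w).pow_pow 3 2) (f.symm.pow_left 3)
    (.of_sq (H.t6 e))

/-- a `2`-group centralized by `u` and normalized by `h` -/
structure _root_.Cfsg.Lib.SD9.FP (u h : G) (P : Subgroup G) : Prop where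
  h3 : h ^ 3 = 1
  h1 : h ≠ 1
  uu : u * u = 1
  u1 : u ≠ 1
  uh : Commute u h
  pg : IsPGroup 2 P
  nh : h ∈ 𝐍(P)
  cu : ∀ y ∈ P, Commute y u

theorem tau (F : FP u h P) (m : y ∈ P) : y * cn h y * cn h (cn h y) = 1 ∨ y * cn h y * cn h (cn h y) = u := by
  rw [← cube_mul F.h3]
  exact H.cube2 (t3_norm F.pg F.h3 F.h1 F.nh m) F.uu F.u1 ((F.cu y m).symm.mul_right F.uh)

theorem com (F : FP u h P) (m : x ∈ P) (n : y ∈ P) (e : cn x y = y ∨ cn x y = y * u) :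
    cn x (cn h y) = cn h y ∨ cn x (cn h y) = cn h y * u := by
  let Z := (zpowers u).subgroupOf 𝐂[u]
  have : Z.Normal := (normal_subgroupOf_iff_le_normalizer (zpowers_le.2 (self_mem_cent1 u))).2
    (cent_zpowers u ▸ cent_le_norm _)
  let π : P →* 𝐂[u] ⧸ Z := (QuotientGroup.mk' Z).comp (inclusion fun y e => mC.2 (F.cu y e))
  have hπ : ∀ x : P, π x = 1 ↔ (x : G) = 1 ∨ (x : G) = u := fun x => (QuotientGroup.eq_one_iff _).trans (zp2 F.uu)
  have cm : ∀ x y : P, π x * π y = π y * π x ↔ cn (x : G) y = y ∨ cn (x : G) y = y * u := fun x y => by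
    rw [← mul_inv_eq_iff_eq_mul, eq_comm, ← inv_mul_eq_one, ← map_inv, ← map_inv, ← map_mul, ← map_mul, ← map_mul, hπ]
    exact or_congr (inv_mul_eq_one.trans eq_comm) inv_mul_eq_iff_eq_mul
  let σ : P → P := fun y => ⟨cn h y, cn_mem F.nh y.2⟩
  have t : ∀ y : P, π y * π (σ y) * π (σ (σ y)) = 1 := fun y => by
    rw [← map_mul, ← map_mul, hπ]; exact H.tau F y.2
  have s : ∀ x y, σ (x * y) = σ x * σ y := fun x y => Subtype.ext (cn_mul _ _ _)
  have t3 := t (⟨x, m⟩ * ⟨y, n⟩)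
  rw [s, s, map_mul, map_mul, map_mul] at t3
  refine (cm ⟨x, m⟩ (σ ⟨y, n⟩)).1 (pure_com (t _) (t _) t3 ((cm _ _).2 e) ((cm _ _).2 ?_))
  change cn (cn h x) (cn h y) = cn h y ∨ cn (cn h x) (cn h y) = cn h y * u
  rw [cn_cn, cn_inj, ← cn_fix F.uh.symm, ← cn_mul, cn_inj]
  exact e

end Hy

end Cfsg.Lib.SD9
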