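import Cfsg.Agent.Lib.SD9.Basic

/-! The intersection of two conjugate normal 2-subgroups of involution centralizers (helper27). -/

set_option autoImplicit false
set_option linter.unusedSectionVars false

namespace Cfsg.Lib.SD9

open Subgroup Cfsg.Lib.BG Cfsg.Lib.Transfer
open scoped Cfsg.Lib.Transfer

variable {G : Type*} [Group G] {p q s t u v w x y h : G} {K P Q R : Subgroup G}

theorem comm_closure {S : Set G} (hc : ∀ x ∈ S, ∀ y ∈ S, Commute x y) (a : x ∈ closure S) (b : y ∈ closure S) :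
    Commute x y := by
  have k : ∀ {y}, (∀ x ∈ S, Commute x y) → closure S ≤ 𝐂[y] := fun e => (closure_le _).2 fun x m => mC.2 (e x m)
  exact mC.1 (k (fun t m => (mC.1 (k (fun s n => hc s n t m) b)).symm) a)

theorem sq_closure {S : Set G} (h2 : ∀ x ∈ S, x * x = 1) (hc : ∀ x ∈ S, ∀ y ∈ S, Commute x y) (a : y ∈ closure S) :
    y * y = 1 := by
  induction a using closure_induction with
  | mem x m => exact h2 x m
  | one => exact mul_one 1
  | mul x y i j k l => exact sq_mul k l (comm_closure hc i j)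
  | inv x i k => rw [← mul_inv_rev, k, inv_one]

theorem tri_comm (a : p * p = 1) (b : q * q = 1) (c : s * s = 1) (d : u * u = 1) (e : Commute u s) (f : p * q * s = u) :
    Commute p q := comm2 a b (by rw [eq_mul_inv_of_mul_eq f, inv2 c]; exact sq_mul d c e)

variable [Finite G]

theorem norm_of (a : ∀ x ∈ K, cn p x ∈ K) : p ∈ 𝐍(K) := mem_normalizer_fintype a

theorem norm_closure {S : Set G} (a : ∀ x ∈ S, cn p x ∈ closure S) : p ∈ 𝐍(closure S) :=
  norm_of fun _ m => (closure_le ((closure S).comap (MulAut.conj p).toMonoidHom)).2 a m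

/-- a normal 2-subgroup of `C(b)` -/
structure QQ (b c : G) (Q : Subgroup G) : Prop where
  pg : IsPGroup 2 Q
  cb : ∀ x ∈ Q, Commute x b
  nrm : ∀ w, Commute w b → w ∈ 𝐍(Q)
  bQ : b ∈ Q
  cQ : c ∉ Q

/-- the involution in the intersection -/
structure XX (r b g x : G) : Prop where
  xx : x * x = 1
  x1 : x ≠ 1
  xb : Commute x b
  rx : cn r x = x
  tau : x * cn g x * cn g (cn g x) = b

/-- an element of order three -/
def hh (r g x : G) : G := (cn g x * cn r (cn g x)) ^ 4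

/-- the subgroup generated by three commuting involutions -/
abbrev E3 (x b c : G) : Subgroup G := zpowers x ⊔ zpowers b ⊔ zpowers c

theorem mem_E3 {b c : G} (xx : x * x = 1) (bb : b * b = 1) (cc : c * c = 1) (xb : Commute x b) (xc : Commute x c)
    (bc : Commute b c) : y ∈ E3 x b c ↔ y = 1 ∨ y = x ∨ y = b ∨ y = x * b ∨ y = c ∨ y = x * c ∨ y = b * c ∨ y = x * b * c := by
  have n : ∀ {p q : G}, Commute p q → p ∈ 𝐍(zpowers q) := fun e => cent_le_norm _ ((cent_zpowers _).ge (mC.2 e))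
  rw [mem_ext (zpowers_le.1 (norm_sup (zpowers_le.2 (n xc.symm)) (zpowers_le.2 (n bc.symm)))) (cc ▸ one_mem _),
    mem_ext (n xb.symm) (bb ▸ one_mem _), mem_ext (n xb.symm) (bb ▸ one_mem _)]
  simp only [zp2 xx, ← eq_mul_inv_iff_mul_eq, inv2 bb, inv2 cc, one_mul, or_assoc]

theorem E3_1 {b c : G} : x ∈ E3 x b c := mem_sup_left (mem_sup_left (mem_zpowers x))
theorem E3_2 {b c : G} : b ∈ E3 x b c := mem_sup_left (mem_sup_right (mem_zpowers b))
theorem E3_3 {b c : G} : c ∈ E3 x b c := mem_sup_right (mem_zpowers c)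
theorem E3_le {b c : G} (i : x ∈ K) (j : b ∈ K) (k : c ∈ K) : E3 x b c ≤ K :=
  sup_le (sup_le (zpowers_le.2 i) (zpowers_le.2 j)) (zpowers_le.2 k)
theorem E3_norm {b c : G} (i : cn p x ∈ E3 x b c) (j : cn p b ∈ E3 x b c) (k : cn p c ∈ E3 x b c) : p ∈ 𝐍(E3 x b c) :=
  norm_of fun _ m => E3_le (K := (E3 x b c).comap (MulAut.conj p).toMonoidHom) i j k m
theorem E3_comm {b c : G} (i : Commute y x) (j : Commute y b) (k : Commute y c) (m : w ∈ E3 x b c) : Commute y w :=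
  (mC.1 (E3_le (K := 𝐂[y]) (mC.2 i.symm) (mC.2 j.symm) (mC.2 k.symm) m)).symm

namespace Hy

variable {a r z b c g k : G} (H : Hy a r z b c g k)
include H

section X

variable (X : XX r b g x)
include X

theorem xc : Commute x c := X.rx ▸ H.rb ▸ cn_comm X.xb r
theorem xz : Commute x z := H.bc ▸ X.xb.mul_right (H.xc X)
theorem sb : Commute (cn g x) b := cn_fix H.bg.symm ▸ cn_comm X.xb g
theorem xs : Commute x (cn g x) := tri_comm X.xx (cn_sq X.xx g) (cn_sq (cn_sq X.xx g) g) H.bb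
  (cn_fix H.bg.symm ▸ cn_comm (H.sb X) g).symm X.tau
theorem x2 : cn g (cn g x) = cn g x * x * b := by
  rw [← X.tau, ← (H.xs X).eq, cancel2 (sq_mul X.xx (cn_sq X.xx g) (H.xs X))]
theorem cs : cn c (cn g x) = cn g x * x * b := by
  rw [← cn_cn, H.cg, cn_fix (H.xc X).symm, cn_inv3 H.g3, H.x2 X]
theorem sc : cn (cn g x) c = x * z := by
  have e := of_cn (cn_symm (H.cs X))
  rw [inv2 H.cc] at e
  rw [cn, ← e, inv2 (cn_sq X.xx g), mul_assoc, mul_assoc, ← (H.sb X).eq, mul_assoc, ← mul_assoc x, (H.xs X).eq, mul_assoc,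
    cancel2 (cn_sq X.xx g), ← mul_assoc, ← (H.xc X).eq, mul_assoc, H.cb']
theorem s'b : cn (cn r (cn g x)) b = x * z := by rw [← H.rc, cn_cn, H.sc X, cn_mul, X.rx, cn_fix H.rz]
theorem s'c : Commute (cn r (cn g x)) c := H.rb ▸ cn_comm (H.sb X) r
theorem xs' : Commute x (cn r (cn g x)) := by simpa [X.rx] using cn_comm (H.xs X) r
theorem rho : cn (cn g x * cn r (cn g x)) b = c ∧ cn (cn g x * cn r (cn g x)) c = x * z ∧
    cn (cn g x * cn r (cn g x)) (x * z) = b :=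
  ⟨by rw [mul_cn, H.s'b X, ← H.sc X, cn2 (cn_sq X.xx g)], by rw [mul_cn, cn_fix (H.s'c X), H.sc X],
    by rw [mul_cn, ← H.s'b X, cn2 (cn_sq (cn_sq X.xx g) r), cn_fix (H.sb X)]⟩
theorem hb : cn (hh r g x) b = c := by simp only [hh, pow_succ, pow_zero, one_mul, mul_cn (_ * _ : G), H.rho X]
theorem hc : cn (hh r g x) c = x * z := by simp only [hh, pow_succ, pow_zero, one_mul, mul_cn (_ * _ : G), H.rho X]
theorem he : cn (hh r g x) (x * z) = b := by simp only [hh, pow_succ, pow_zero, one_mul, mul_cn (_ * _ : G), H.rho X]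
theorem h3 : hh r g x ^ 3 = 1 := by
  have := H.t6 (t3_cn (w := cn g x * cn r (cn g x)) (x := b)
    (by simp only [pow_succ, pow_zero, one_mul, mul_cn (_ * _ : G), H.rho X]) (by rw [(H.rho X).1]; exact H.bc_ne.symm))
  rw [hh, ← pow_mul, show 4 * 3 = (3 + 3) * 2 from rfl, pow_mul, pow_add, this, one_pow]
theorem h1 : hh r g x ≠ 1 := fun e => H.bc_ne (by rw [← H.hb X, e, one_cn])
theorem xh : Commute x (hh r g x) := ((H.xs X).mul_right (H.xs' X)).pow_right 4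
theorem sh : cn (cn g x) (hh r g x) = (hh r g x)⁻¹ := by
  rw [hh, cn_pow, ← inv_pow, mul_inv_rev, inv2 (cn_sq X.xx g), inv2 (cn_sq (cn_sq X.xx g) r), cn, inv2 (cn_sq X.xx g),
    cancel2 (cn_sq X.xx g)]
theorem Bx : IsConj b x := H.isB (.of3 (H.h3 X) (H.h1 X)) X.xx X.x1 (H.xh X)
theorem hbx : cn (hh r g x) (cn (hh r g x) (b * x)) = z := by
  rw [cn_mul, cn_mul, H.hb X, H.hc X, cn_fix (H.xh X).symm, cn_fix (H.xh X).symm, mul_assoc, ← (H.xz X).eq, cancel2 X.xx]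
theorem mE : y ∈ E3 x b c ↔ y = 1 ∨ y = x ∨ y = b ∨ y = x * b ∨ y = c ∨ y = x * c ∨ y = z ∨ y = x * z := by
  rw [mem_E3 X.xx H.bb H.cc X.xb (H.xc X) H.cb.symm, mul_assoc, H.bc]
theorem xzE : x * z ∈ E3 x b c := H.bc ▸ mul_mem E3_1 (mul_mem E3_2 E3_3)
theorem sE : cn g x ∈ 𝐍(E3 x b c) :=
  E3_norm ((cn_fix (H.xs X).symm).symm ▸ E3_1) ((cn_fix (H.sb X)).symm ▸ E3_2) (H.sc X ▸ H.xzE X)
theorem s'E : cn r (cn g x) ∈ 𝐍(E3 x b c) :=
  E3_norm ((cn_fix (H.xs' X).symm).symm ▸ E3_1) (H.s'b X ▸ H.xzE X) ((cn_fix (H.s'c X)).symm ▸ E3_3)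

end X

theorem fp (J : QQ b c Q) : FP b g Q := ⟨H.g3, H.g1, H.bb, H.b1, H.bg, J.pg, J.nrm g H.bg.symm, J.cb⟩

theorem not_tau (xx : x * x = 1) (x1 : x ≠ 1) (rx : cn r x = x) : x * cn g x * cn g (cn g x) ≠ 1 := fun e => by
  have e' : x * cn k x * cn k (cn k x) = 1 := by
    have := congrArg (cn r) e
    rwa [cn_mul, cn_mul, ← cn_cn r g, ← cn_cn r g, ← cn_cn r g, rx, H.rg, cn_one] at this
  have f : ∀ {g}, x * cn g x * cn g (cn g x) = 1 → Commute x (cn g x) ∧ cn g (cn g x) = x * cn g x := fun {g} e =>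
    have i := tri_comm xx (cn_sq xx g) (cn_sq (cn_sq xx g) g) (mul_one 1) (Commute.one_left _) e
    ⟨i, (eq_inv_of_mul_eq_one_right e).trans (inv2 (sq_mul xx (cn_sq xx g) i))⟩
  obtain ⟨c1, d1⟩ := f e
  obtain ⟨c2, d2⟩ := f e'
  have gk : ∀ y, cn k (cn g y) = cn g (cn k y) := fun y => by rw [← mul_cn, ← mul_cn, H.gk.eq]
  have d3 : cn g (cn g (cn k x)) = cn k x * cn g (cn k x) := by rw [← gk, ← gk, d1, cn_mul]
  have d4 : cn k (cn g (cn k x)) = cn g x * cn g (cn k x) := by rw [gk, d2, cn_mul]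
  have c3 : Commute (cn g x) (cn k x) := by
    have i : cn g (cn g (cn k (cn k x))) = cn k (cn k (cn g (cn g x))) := by simp only [gk]
    rw [d2, d1, cn_mul, cn_mul, cn_mul, cn_mul, d1, d3, d2, gk, d4] at i
    rw [mul_assoc, mul_assoc, mul_right_inj, ← mul_assoc, ← mul_assoc, mul_left_inj] at i
    exact i
  have c4 : Commute x (cn g (cn k x)) := by
    have i := cn_comm (cn_comm c3 g) g
    rw [cn3 H.g3, d3] at i
    simpa using c2.inv_right.mul_right i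
  have c5 : Commute (cn k x) (cn g (cn k x)) := gk x ▸ cn_comm c1 k
  have c6 := cn_comm c2 g
  have m : ∀ y ∈ ({x, cn g x, cn k x, cn g (cn k x)} : Set G), y ∈ closure {x, cn g x, cn k x, cn g (cn k x)} :=
    fun _ i => Subgroup.subset_closure i
  simp only [Set.mem_insert_iff, Set.mem_singleton_iff, forall_eq_or_imp, forall_eq] at m
  refine ne_bot_of_mem m.1 x1 (H.nm _ (pg_of fun y i => .of_sq (sq_closure ?_ ?_ i)) (norm_closure ?_) (norm_closure ?_)) <;>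
    simp only [Set.mem_insert_iff, Set.mem_singleton_iff, forall_eq_or_imp, forall_eq]
  · exact ⟨xx, cn_sq xx _, cn_sq xx _, cn_sq (cn_sq xx _) _⟩
  · exact ⟨⟨.refl _, c1, c2, c4⟩, ⟨c1.symm, .refl _, c3, c6⟩, ⟨c2.symm, c3.symm, .refl _, c5⟩, c4.symm, c6.symm, c5.symm, .refl _⟩
  · exact ⟨m.2.1, d1 ▸ mul_mem m.1 m.2.1, m.2.2.2, d3 ▸ mul_mem m.2.2.1 m.2.2.2⟩
  · exact ⟨m.2.2.1, gk x ▸ m.2.2.2, d2 ▸ mul_mem m.1 m.2.2.1, d4 ▸ mul_mem m.2.1 m.2.2.2⟩

theorem zQ (J : QQ b c Q) : z ∉ Q := fun e => J.cQ (H.bz ▸ mul_mem J.bQ e)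

theorem step (J : QQ b c Q) (X : XX r b g x) (xQ : x ∈ Q) (m : y ∈ Q) (n : cn r y ∈ Q) (e : y * y = 1 ∨ y * y = x)
    (f : Commute y x) : y = 1 ∨ y = x := by
  have k1 : ∀ {y}, y ∈ Q → (y * y = 1 ∨ y * y = x) → Commute y x → y⁻¹ * cn (cn g x) y ∈ zpowers b := fun {y} m e f => by
    have := H.com (H.fp J) m xQ (.inl (cn_fix f))
    rw [zp2 H.bb, inv_mul_eq_one, inv_mul_eq_iff_eq_mul]
    refine this.imp (fun i => (cn_fix (comm_of_cn i).symm).symm) fun i => ?_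
    have i := of_cn i
    rw [mul_assoc, ← (J.cb y m).eq, ← mul_assoc] at i
    rw [cn, ← mul_inv_eq_iff_eq_mul.2 i, inv2 H.bb, inv2 (cn_sq X.xx g), mul_assoc, mul_assoc, ← (H.sb X).eq,
      cancel2 (cn_sq X.xx g)]
  have yb := J.cb y m
  have n' : cn r⁻¹ y ∈ Q := by
    rw [H.ri, H.rz.eq, mul_cn]; exact cn_mem (J.nrm z H.zb) n
  have yc : Commute y c := by simpa [cn_inv_cn, H.rb] using cn_comm (J.cb _ n') r
  have rx := cn_symm X.rx
  have k2 : y⁻¹ * cn (cn r (cn g x)) y ∈ zpowers c := by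
    obtain ⟨j, i⟩ := k1 n' (by rw [← cn_mul, ← rx, cn_inj, cn_eq_one]; exact e) (rx ▸ cn_comm f _)
    refine ⟨j, ?_⟩
    have := congrArg (cn r) i
    rwa [cn_zpow, H.rb, cn_mul, cn_inv, cn_inv_cn, ← cn_cn, cn_inv_cn] at this
  let S : Submonoid G :=
    { carrier := {p | ∀ w, y⁻¹ * w ∈ E3 x b c → y⁻¹ * cn p w ∈ E3 x b c}
      one_mem' := fun w i => (one_cn w).symm ▸ i
      mul_mem' := fun i j w l => mul_cn _ _ w ▸ i _ (j w l) }
  have k3 : ∀ {p}, p ∈ 𝐍(E3 x b c) → y⁻¹ * cn p y ∈ E3 x b c → p ∈ S := fun {p} i j w l => by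
    have := mul_mem j (cn_mem i l)
    rwa [mul_assoc, ← cn_mul, mul_inv_cancel_left] at this
  have k4 : hh r g x ∈ S := pow_mem (mul_mem (k3 (H.sE X) (zpowers_le.2 E3_2 (k1 m e f)))
    (k3 (H.s'E X) (zpowers_le.2 E3_3 k2))) 4
  have i1 := k4 y (by simp)
  have i2 := k4 _ i1
  have cE : ∀ {v w}, v ∈ E3 x b c → w ∈ E3 x b c → Commute v w := fun i j =>
    E3_comm (E3_comm (.refl _) X.xb (H.xc X) i).symm (E3_comm X.xb.symm (.refl _) H.cb.symm i).symm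
      (E3_comm (H.xc X).symm H.cb (.refl _) i).symm j
  have yE : ∀ {w}, w ∈ E3 x b c → Commute y w := E3_comm f yb yc
  obtain ⟨e1, m1, j1⟩ : ∃ e1 ∈ E3 x b c, cn (hh r g x) y = y * e1 := ⟨_, i1, by simp⟩
  obtain ⟨e2, m2, j2⟩ : ∃ e2 ∈ E3 x b c, cn (hh r g x) (cn (hh r g x) y) = y * e2 := ⟨_, i2, by simp⟩
  have yy : y * y ∈ E3 x b c := e.elim (fun i => i ▸ one_mem _) fun i => i ▸ E3_1
  have c1 : Commute y (cn (hh r g x) y) := j1 ▸ (Commute.refl y).mul_right (yE m1)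
  have c2 : Commute y (cn (hh r g x) (cn (hh r g x) y)) := j2 ▸ (Commute.refl y).mul_right (yE m2)
  have y2 := E2.of_mem J.pg m
  have xh := cn_fix (H.xh X).symm
  have f1 : Commute (cn (hh r g x) y) x := by simpa only [xh] using cn_comm f (hh r g x)
  have v := H.two (H.h3 X) (H.h1 X) X.xx X.x1 (H.xh X) (y := y * (cn (hh r g x) y * cn (hh r g x) (cn (hh r g x) y)))
    (comm_of_cn (by rw [cn_mul, cn_mul, cn3 (H.h3 X), (c1.mul_right c2).eq, mul_assoc])).symm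
    (f.mul_left (f1.mul_left (by simpa only [xh] using cn_comm f1 (hh r g x))))
    (y2.mul ((y2.cn _).mul ((y2.cn _).cn _) (cn_comm c1 _)) (c1.mul_right c2))
  have w : y ∈ E3 x b c := by
    have : y * (cn (hh r g x) y * cn (hh r g x) (cn (hh r g x) y)) ∈ E3 x b c :=
      v.elim (fun i => i.symm ▸ one_mem _) fun i => i.symm ▸ E3_1
    rw [j2, j1, mul_assoc, ← mul_assoc e1, ← (yE m1).eq, mul_assoc, ← mul_assoc y y] at this
    exact (mul_mem_cancel_right (mul_mem m1 m2)).1 ((mul_mem_cancel_left yy).1 this)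
  have xQ' : ∀ {t}, x * t ∈ Q → t ∈ Q := (mul_mem_cancel_left xQ).1
  rcases (H.mE X).1 w with rfl | rfl | rfl | rfl | rfl | rfl | rfl | rfl
  · exact .inl rfl
  · exact .inr rfl
  · exact absurd (H.rb ▸ n) J.cQ
  · rw [cn_mul, X.rx, H.rb] at n; exact absurd (xQ' n) J.cQ
  · exact absurd m J.cQ
  · exact absurd (xQ' m) J.cQ
  · exact absurd m (H.zQ J)
  · exact absurd (xQ' m) (H.zQ J)

theorem q1 (J : QQ b c Q) (m : y ∈ Q) (n : cn r y ∈ Q) (y1 : y ≠ 1) :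
    ∃ x ∈ Q, XX r b g x ∧ ∀ y ∈ Q, cn r y ∈ Q → y = 1 ∨ y = x := by
  let Q1 := Q ⊓ Q.comap (MulAut.conj r).toMonoidHom
  have p1 : IsPGroup 2 Q1 := pgroup_of_le J.pg inf_le_left
  have rN : r ∈ 𝐍(Q1) := norm_of fun x i => ⟨i.2, by
    change cn r (cn r x) ∈ Q
    rw [← mul_cn, H.rr]; exact cn_mem (J.nrm z H.zb) i.1⟩
  obtain ⟨x, xQ, xx, x1, e⟩ := exists_inv (pgroup_sup p1 H.r2.pg (zpowers_le.2 rN)) le_sup_left
    (sup_le_norm_left (zpowers_le.2 rN)) (ne_bot_of_mem (A := Q1) ⟨m, n⟩ y1)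
  have rx := cn_fix (e r (mem_sup_right (mem_zpowers r))).symm
  have X : XX r b g x := ⟨xx, x1, J.cb x xQ.1, rx, (H.tau (H.fp J) xQ.1).resolve_left (H.not_tau xx x1 rx)⟩
  refine ⟨x, xQ.1, X, fun y m n => (zp2 xx).1 (by_contra fun f => ?_)⟩
  obtain ⟨w, i, j, l, -⟩ := exists_out p1 (lt_of_le_of_ne (zpowers_le.2 xQ) fun e : zpowers x = Q1 => f (e.ge ⟨m, n⟩)) le_rfl
    (le_norm _) (norm_of_cent fun w i => cent_zpowers x ▸ mC.2 (e w (mem_sup_left i)).symm)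
  exact j ((zp2 xx).2 (H.step J X xQ.1 i.1 i.2 ((zp2 xx).1 l) (e w (mem_sup_left i)).symm))

end Hy

end Cfsg.Lib.SD9
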